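import Mathlib
import Cfsg.Agent.H113.Cusp.Asm

/-!
# Dimension at most five; elements of order `p`, `p` odd, `p`-th roots of unity in the field, without fixed points (helper113)

* `rk2_of` : `dim V ≤ 5` gives `Rk2`;
* `exists_reg` : `s` of order `p`: some eigenspace `W` is totally singular, `s` normalises `rad W` and acts without
  fixed points on it.
-/

set_option autoImplicit false
set_option linter.unusedSectionVars false

open scoped ComplexConjugate
open Cfsg

namespace Cfsg.Agent.H113.Cusp.Reg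

open Module Cfsg.Agent.H53.HC Cfsg.Agent.H477.HC Cfsg.Agent.H477.HC.CForm Cfsg.Agent.H113.Two.HcOne
  Cfsg.Agent.H113.Cusp.Tool Cfsg.Agent.H113.Cusp.Flag Cfsg.Agent.H113.Cusp.Rel Cfsg.Agent.H113.Cusp.Asm

universe u v w

variable {K : Type u} [Field K] {V : Type v} [AddCommGroup V] [Module K V] {F : CForm K V} [FiniteDimensional K V]

/-- the dimension of the orthogonal space -/
theorem finrank_perp {k : ℕ} {W : Submodule K V} (hW : W ∈ F.Om k) : finrank K (F.perp W) + k = finrank K V := by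
  classical
  obtain ⟨W', hW', hopp⟩ := F.exists_opp hW
  obtain ⟨b, b', hb⟩ := exists_dual_basis hW.2 hW'.2 hopp
  have hbb : ∀ i l, F.B (b' i) (b l) = if i = l then F.ε else 0 := by
    intro i l
    rw [F.B_symm, hb]
    by_cases hij : i = l
    · rw [if_pos hij, if_pos hij.symm, map_one, mul_one]
    · rw [if_neg hij, if_neg (Ne.symm hij), map_zero, mul_zero]
  let L : V →ₗ[K] (Fin k → K) := LinearMap.pi fun i => F.lf (b i)
  have hL : Function.Surjective L := by
    intro s
    refine ⟨∑ i, (s i * F.ε⁻¹) • (b' i : V), ?_⟩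
    ext i
    change F.B (∑ i, (s i * F.ε⁻¹) • (b' i : V)) (b i) = s i
    rw [B_sum_left, Finset.sum_eq_single i]
    · rw [hbb, if_pos rfl, mul_assoc, inv_mul_cancel₀ F.ε_ne, mul_one]
    · intro l _ hl
      rw [hbb, if_neg hl, mul_zero]
    · intro h; exact absurd (Finset.mem_univ _) h
  have h1 := LinearMap.finrank_range_add_finrank_ker L
  rw [LinearMap.range_eq_top.2 hL, finrank_top, finrank_fin_fun] at h1
  have h2 : LinearMap.ker L = F.perp W := by
    ext v
    rw [LinearMap.mem_ker]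
    constructor
    · intro h w hw
      have h4 : w = ∑ i, b.repr ⟨w, hw⟩ i • (b i : V) := by
        have := congrArg Subtype.val (b.sum_repr ⟨w, hw⟩)
        simp only [Submodule.coe_sum, Submodule.coe_smul] at this
        exact this.symm
      rw [h4, B_sum_right]
      refine Finset.sum_eq_zero fun i _ => ?_
      have h5 : F.B v (b i) = 0 := congrFun h i
      rw [h5, mul_zero]
    · intro h
      ext i
      exact h _ (b i).2
  rw [h2] at h1
  omega

theorem rk2_of (hd : finrank K V ≤ 5) : Rk2 F where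
  le W hW := by
    have := H749.Two.two_finrank_le hW
    omega
  sc L hL g hg := by
    have h1 := finrank_perp hL
    have hle := hL.1.le_perp
    by_cases h : ∃ v₀ ∈ F.perp L, v₀ ∉ L
    · obtain ⟨v₀, hv₀, hv₀L⟩ := h
      have h0 : v₀ ≠ 0 := by
        rintro rfl
        exact hv₀L L.zero_mem
      have h2 : L ⊓ (K ∙ v₀) = ⊥ := by
        rw [Submodule.eq_bot_iff]
        rintro x ⟨hx, hx'⟩
        obtain ⟨t, rfl⟩ := Submodule.mem_span_singleton.1 hx'
        by_cases ht : t = 0
        · rw [ht, zero_smul]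
        · exfalso
          apply hv₀L
          have := L.smul_mem t⁻¹ hx
          rwa [smul_smul, inv_mul_cancel₀ ht, one_smul] at this
      have h3 : L ⊔ (K ∙ v₀) = F.perp L := by
        apply Submodule.eq_of_le_of_finrank_le
        · exact sup_le hle ((Submodule.span_singleton_le_iff_mem _ _).2 hv₀)
        · have h4 := Submodule.finrank_sup_add_finrank_inf_eq L (K ∙ v₀)
          rw [h2, finrank_bot, finrank_span_singleton h0, hL.2] at h4
          omega
      have h4 := mem_perp_ap hg hv₀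
      rw [← h3] at h4
      obtain ⟨a, ha, b, hb, hab⟩ := Submodule.mem_sup.1 h4
      obtain ⟨c, rfl⟩ := Submodule.mem_span_singleton.1 hb
      refine ⟨c, fun v hv => ?_⟩
      rw [← h3] at hv
      obtain ⟨a', ha', b', hb', rfl⟩ := Submodule.mem_sup.1 hv
      obtain ⟨t, rfl⟩ := Submodule.mem_span_singleton.1 hb'
      rw [map_add, map_smul, ← hab]
      have e1 : (g : V ≃ₗ[K] V) a' + t • (a + c • v₀) - c • (a' + t • v₀) = (g : V ≃ₗ[K] V) a' + t • a - c • a' := by
        module
      rw [e1]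
      exact L.sub_mem (L.add_mem (mem_St.1 hg a' ha') (L.smul_mem _ ha)) (L.smul_mem _ ha')
    · push Not at h
      refine ⟨0, fun v hv => ?_⟩
      rw [zero_smul, sub_zero]
      exact mem_St.1 hg v (h v hv)

section ss

variable {p : ℕ} [Fact p.Prime]

/-- an operator of order `p` -/
theorem split_of (hpK : (p : K) ≠ 0) {t : V →ₗ[K] V} (ht : t ^ p = 1) (M : Submodule K V)
    (hM : ∀ v ∈ M, t v ∈ M) {v : V} (hv : v ∈ M) : ∃ x ∈ M, t x = x ∧ ∃ y ∈ M, v = x + (y - t y) := by
  have hpow : ∀ (j : ℕ), ∀ v ∈ M, (t ^ j) v ∈ M := by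
    intro j
    induction j with
    | zero => intro v hv; rw [pow_zero]; exact hv
    | succ j ih => intro v hv; rw [pow_succ', Module.End.mul_apply]; exact hM _ (ih v hv)
  refine ⟨(p : K)⁻¹ • (∑ j ∈ Finset.range p, t ^ j) v, ?_, ?_,
    (p : K)⁻¹ • (∑ j ∈ Finset.range p, ∑ i ∈ Finset.range j, t ^ i) v, ?_, ?_⟩
  · rw [LinearMap.sum_apply]
    exact M.smul_mem _ (M.sum_mem fun j _ => hpow j v hv)
  · rw [map_smul]
    congr 1
    have h1 : t * ∑ j ∈ Finset.range p, t ^ j = ∑ j ∈ Finset.range p, t ^ j := by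
      have h2 := mul_neg_geom_sum t p
      rw [ht, sub_self, sub_mul, one_mul, sub_eq_zero] at h2
      exact h2.symm
    exact LinearMap.congr_fun h1 v
  · rw [LinearMap.sum_apply]
    refine M.smul_mem _ (M.sum_mem fun j _ => ?_)
    rw [LinearMap.sum_apply]
    exact M.sum_mem fun i _ => hpow i v hv
  · have h1 : (1 - t) * ∑ j ∈ Finset.range p, ∑ i ∈ Finset.range j, t ^ i = (p : V →ₗ[K] V) - ∑ j ∈ Finset.range p, t ^ j := by
      rw [Finset.mul_sum, Finset.sum_congr rfl fun j _ => mul_neg_geom_sum t j, Finset.sum_sub_distrib, Finset.sum_const,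
        Finset.card_range, nsmul_eq_mul, mul_one]
    have h2 := LinearMap.congr_fun h1 v
    rw [Module.End.mul_apply, LinearMap.sub_apply, LinearMap.sub_apply, Module.End.one_apply] at h2
    have h3 : (p : V →ₗ[K] V) v = (p : K) • v := by
      rw [← nsmul_one, LinearMap.smul_apply, Module.End.one_apply, Nat.cast_smul_eq_nsmul]
    rw [h3] at h2
    rw [map_smul, ← smul_sub, h2, ← smul_add, add_sub_cancel, smul_smul, inv_mul_cancel₀ hpK, one_smul]

end ss

/-- **fixed point free action on the radical** -/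
theorem exists_reg {p : ℕ} [Fact p.Prime] (hp2 : p ≠ 2) (hpK : (p : K) ≠ 0) (hroots : ∃ ζ : K, IsPrimitiveRoot ζ p)
    (hσ : ∀ a : K, a ^ p = 1 → F.σ a = a) {s : F.iso} (hs : orderOf s = p) :
    ∃ W : Submodule K V, W ≠ ⊥ ∧ F.TS W ∧ s ∈ St F W ∧ ∀ u ∈ rad F W, s * u = u * s → u = 1 := by
  classical
  have hp : p.Prime := Fact.out
  let S : V →ₗ[K] V := ((s : V ≃ₗ[K] V) : V →ₗ[K] V)
  have hS : ∀ v, S v = (s : V ≃ₗ[K] V) v := fun v => rfl
  have hSp : S ^ p = 1 := by
    have h1 : s ^ p = 1 := by rw [← hs]; exact pow_orderOf_eq_one s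
    have key : ∀ (j : ℕ) (v : V), (S ^ j) v = ((s ^ j : F.iso) : V ≃ₗ[K] V) v := by
      intro j
      induction j with
      | zero => intro v; rfl
      | succ j ih => intro v; rw [pow_succ', Module.End.mul_apply, ih, pow_succ', mul_ap]; rfl
    ext v
    rw [key, h1]
    rfl
  -- an eigenvalue different from one
  obtain ⟨a, ha, ha1, v₀, hv₀, hav⟩ : ∃ a : K, a ^ p = 1 ∧ a ≠ 1 ∧ ∃ v₀ : V, v₀ ≠ 0 ∧ S v₀ = a • v₀ := by
    by_contra hcon
    push Not at hcon
    obtain ⟨ζ, hζ⟩ := hroots
    have h1 : (Polynomial.X ^ p - 1 : Polynomial K) = ∏ b ∈ Polynomial.nthRootsFinset p (1 : K),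
        (Polynomial.X - Polynomial.C b) := Polynomial.X_pow_sub_one_eq_prod hp.pos hζ
    have h1m : (1 : K) ∈ Polynomial.nthRootsFinset p (1 : K) := by
      rw [Polynomial.mem_nthRootsFinset hp.pos, one_pow]
    have h2 : Polynomial.aeval S (Polynomial.X ^ p - 1 : Polynomial K) = 0 := by
      rw [map_sub, map_pow, Polynomial.aeval_X, map_one, hSp, sub_self]
    rw [h1, ← Finset.prod_erase_mul _ _ h1m, map_mul] at h2
    have h3 : ∀ T : Finset K, (∀ b ∈ T, b ^ p = 1 ∧ b ≠ 1) →
        Function.Injective (Polynomial.aeval S (∏ b ∈ T, (Polynomial.X - Polynomial.C b))) := by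
      intro T
      induction T using Finset.induction_on with
      | empty => intro _; rw [Finset.prod_empty, map_one]; exact fun _ _ h => h
      | insert b T hb ih =>
        intro hT
        rw [Finset.prod_insert hb, map_mul]
        have h4 := ih fun c hc => hT c (Finset.mem_insert_of_mem hc)
        have h5 : Function.Injective (Polynomial.aeval S (Polynomial.X - Polynomial.C b)) := by
          rw [injective_iff_map_eq_zero]
          intro v hv
          by_contra hv0
          have hb' := hT b (Finset.mem_insert_self _ _)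
          apply hcon b hb'.1 hb'.2 v hv0
          rw [map_sub, Polynomial.aeval_X, Polynomial.aeval_C, LinearMap.sub_apply] at hv
          exact sub_eq_zero.1 hv
        exact h5.comp h4
    have h4 := h3 ((Polynomial.nthRootsFinset p (1 : K)).erase 1) fun b hb => by
      rw [Finset.mem_erase, Polynomial.mem_nthRootsFinset hp.pos] at hb
      exact ⟨hb.2, hb.1⟩
    have h5 : s = 1 := by
      apply Subtype.ext
      ext v
      have h6 := LinearMap.congr_fun h2 v
      rw [Module.End.mul_apply, LinearMap.zero_apply] at h6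
      have h7 := h4 (h6.trans (map_zero _).symm)
      rw [map_sub, Polynomial.aeval_X, Polynomial.aeval_C, LinearMap.sub_apply, map_one] at h7
      exact sub_eq_zero.1 h7
    rw [h5, orderOf_one] at hs
    exact hp.one_lt.ne hs
  have ha0 : a ≠ 0 := by
    rintro rfl
    rw [zero_pow hp.ne_zero] at ha
    exact zero_ne_one ha
  have hσa := hσ a ha
  have haa : a * a ≠ 1 := by
    intro h
    apply ha1
    have h1 : orderOf (Units.mk0 a ha0) ∣ 2 := orderOf_dvd_of_pow_eq_one (Units.ext (by
      rw [Units.val_pow_eq_pow_val, Units.val_mk0, sq, h]; rfl))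
    have h2 : orderOf (Units.mk0 a ha0) ∣ p := orderOf_dvd_of_pow_eq_one (Units.ext (by
      rw [Units.val_pow_eq_pow_val, Units.val_mk0, ha]; rfl))
    have h3 : Nat.Coprime 2 p := (Nat.coprime_primes Nat.prime_two hp).2 (Ne.symm hp2)
    have h4 := Nat.eq_one_of_dvd_coprimes h3 h1 h2
    rw [orderOf_eq_one_iff] at h4
    exact congrArg Units.val h4
  let W : Submodule K V := LinearMap.ker (S - a • 1)
  have hW : ∀ v, v ∈ W ↔ S v = a • v := by
    intro v
    rw [LinearMap.mem_ker, LinearMap.sub_apply, sub_eq_zero]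
    rfl
  have hWne : W ≠ ⊥ := by
    intro h
    apply hv₀
    have := (hW v₀).2 hav
    rw [h] at this
    exact (Submodule.mem_bot K).1 this
  have hB : ∀ v ∈ W, ∀ w ∈ W, F.B v w = 0 := by
    intro v hv w hw
    have h1 := F.iso_B s v w
    rw [← hS, ← hS, (hW v).1 hv, (hW w).1 hw, F.B_smul_left, F.B_smul_right, hσa, ← mul_assoc] at h1
    have h2 : (a * a - 1) * F.B v w = 0 := by rw [sub_mul, h1]; ring
    exact (mul_eq_zero.1 h2).resolve_left (sub_ne_zero.2 haa)
  have hTS : F.TS W := by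
    refine ⟨fun v hv => ?_, hB⟩
    have h1 := F.iso_Q s v
    rw [← hS, (hW v).1 hv, F.Q_smul, hσa] at h1
    have h2 : (a * a - 1) * F.Q v = 0 := by rw [sub_mul, h1]; ring
    exact (mul_eq_zero.1 h2).resolve_left (sub_ne_zero.2 haa)
  have hst : s ∈ St F W := by
    rw [mem_St]
    intro v hv
    rw [← hS, (hW v).1 hv]
    exact W.smul_mem _ hv
  refine ⟨W, hWne, hTS, hst, fun u hu hcomm => ?_⟩
  rw [mem_rad hTS] at hu
  have hcomm' : ∀ v, S ((u : V ≃ₗ[K] V) v) = (u : V ≃ₗ[K] V) (S v) := by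
    intro v
    rw [hS, hS, ← mul_ap, hcomm, mul_ap]
  -- the operator `t = a⁻¹ s`
  let t : V →ₗ[K] V := a⁻¹ • S
  have ht : t ^ p = 1 := by
    change (a⁻¹ • S) ^ p = 1
    rw [smul_pow, hSp, inv_pow, ha, inv_one, one_smul]
  have htS : ∀ v, t v = a⁻¹ • S v := fun v => rfl
  have htW : ∀ v, t v = v → v ∈ W := by
    intro v hv
    rw [hW]
    have h1 := congrArg (fun x => a • x) hv
    simp only [htS, smul_smul, mul_inv_cancel₀ ha0, one_smul] at h1
    exact h1
  have htW' : ∀ v ∈ W, t v = v := by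
    intro v hv
    rw [htS, (hW v).1 hv, smul_smul, inv_mul_cancel₀ ha0, one_smul]
  have hcommt : ∀ v, t ((u : V ≃ₗ[K] V) v) = (u : V ≃ₗ[K] V) (t v) := by
    intro v
    rw [htS, htS, hcomm', map_smul]
  have step : ∀ M : Submodule K V, (∀ v ∈ M, t v ∈ M) → (∀ v ∈ M, (u : V ≃ₗ[K] V) v - v ∈ W) →
      ∀ v ∈ M, (u : V ≃ₗ[K] V) v = v := by
    intro M hM hM' v hv
    obtain ⟨x, hx, hx', y, hy, rfl⟩ := split_of hpK ht M hM hv
    have h1 := htW' _ (hM' y hy)
    rw [map_sub, hcommt] at h1
    rw [map_add, map_sub, hu.1 x (htW x hx')]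
    have h2 : (u : V ≃ₗ[K] V) y - (u : V ≃ₗ[K] V) (t y) = y - t y := by
      have h3 := sub_eq_sub_iff_add_eq_add.1 h1
      rw [sub_eq_sub_iff_add_eq_add, add_comm _ (t y), add_comm (t y), ← h3]
      abel
    rw [h2]
  have hA : ∀ v ∈ F.perp W, (u : V ≃ₗ[K] V) v = v :=
    step (F.perp W) (fun v hv => (F.perp W).smul_mem _ (mem_perp_ap hst hv)) hu.2
  have hB' : ∀ v ∈ (⊤ : Submodule K V), (u : V ≃ₗ[K] V) v - v ∈ W := by
    intro v _
    rw [← F.perp_perp W]
    intro w hw
    have h1 := F.iso_B u v w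
    rw [hA w hw] at h1
    rw [F.B_sub_left, h1, sub_self]
  have hC := step ⊤ (fun _ _ => trivial) hB'
  apply Subtype.ext
  ext v
  exact hC v trivial

/-- **Families of seven irreducible characters agreeing on all parabolic subgroups have `p`-defect zero**,
`p` odd, `p`-th roots of unity fixed by `σ`, dimension at most five. -/
theorem defect_zero_form [Finite K] [Finite V] (hd : finrank K V ≤ 5) {p : ℕ} [Fact p.Prime] (hp2 : p ≠ 2)
    (hpK : (p : K) ≠ 0) (hroots : ∃ ζ : K, IsPrimitiveRoot ζ p) (hσ : ∀ a : K, a ^ p = 1 → F.σ a = a)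
    {ι : Type*} [Fintype ι] {χ : ι → F.iso → ℂ} (hχ : ∀ i, IsIrrCharacter F.iso (χ i)) (hinj : Function.Injective χ)
    (hres : ∀ W : Submodule K V, W ≠ ⊥ → F.TS W → ∀ g ∈ St F W, ∀ i j, χ i g = χ j g) (hcard : 7 ≤ Fintype.card ι)
    (i : ι) : (charDegree (χ i)).factorization p = (Nat.card F.iso).factorization p := by
  have := finite_iso F
  refine defect_zero (hχ i) fun s hs => ?_
  obtain ⟨W, hW0, hTS, hst, hfix⟩ := exists_reg hp2 hpK hroots hσ hs
  have hR := rk2_of (F := F) hd
  refine ⟨rad F W, fun {_} => ?_, fun u => ⟨fun hu => rad_conj hTS hst hu, fun hu => ?_⟩, hfix⟩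
  · have h1 : finrank K W ≠ 0 := fun h => hW0 (Submodule.finrank_eq_zero.1 h)
    have h2 := hR.le W hTS
    rcases (show finrank K W = 1 ∨ finrank K W = 2 by omega) with h | h
    · exact cusp_point hR ⟨hTS, h⟩ hχ hinj (fun i j g hg => hres W hW0 hTS g hg i j) hcard i
    · exact cusp_line hR ⟨hTS, h⟩ hχ hinj (fun i j g hg => hres W hW0 hTS g hg i j) hcard i
  · have h1 := rad_conj hTS (inv_mem hst) hu
    have h2 : s⁻¹ * (s * u * s⁻¹) * s⁻¹⁻¹ = u := by group
    rwa [h2] at h1

end Cfsg.Agent.H113.Cusp.Reg
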