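import Mathlib
import Cfsg.Agent.H113.Cusp.TorFus

/-!
# The characters of the torus, and the family of exceptional characters (helper113)
-/

set_option autoImplicit false
set_option linter.unusedSectionVars false
set_option linter.style.haveILetI false

open scoped ComplexConjugate
open Cfsg

namespace Cfsg.Agent.H113.Cusp.Torus

open Module Cfsg.Agent.H477.HC Cfsg.Agent.H477.HC.CForm Cfsg.Agent.H749 Cfsg.Agent.H113.Cusp.Exc

universe u

variable {K : Type u} [Field K] {L : Type} [Field L] [Algebra K L]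

variable [Finite K] {q : ℕ} {hq : Nat.card K = q ^ 2} {m d n : ℕ} (D : Dat K q hq L m d n)

/-- the eigenvalue -/
noncomputable def Dat.wH : D.T →* Lˣ where
  toFun t := t.2.choose
  map_one' := by
    obtain ⟨c, hc⟩ := (1 : D.T).2.choose_spec
    exact (D.sem_uniq hc D.sem_one).1
  map_mul' a b := by
    obtain ⟨c, hc⟩ := (a * b).2.choose_spec
    obtain ⟨c1, hc1⟩ := a.2.choose_spec
    obtain ⟨c2, hc2⟩ := b.2.choose_spec
    have h := (D.sem_uniq hc (D.sem_mul hc1 hc2)).1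
    refine h.trans ?_
    apply Units.ext
    rfl

theorem Dat.wH_spec (t : D.T) : ∃ c, D.Sem (t : G K hq n) 1 (D.wH t) c := t.2.choose_spec

theorem Dat.wH_eq {t : D.T} {u : Lˣ} {c : Kˣ} (h : D.Sem (t : G K hq n) 1 u c) : D.wH t = u := by
  obtain ⟨c', h'⟩ := D.wH_spec t
  exact (D.sem_uniq h' h).1

/-- the character group quotient -/
noncomputable def Dat.pi0 : D.T →* Lˣ := (powMonoidHom (q + 1)).comp D.wH

theorem Dat.pi0_apply (t : D.T) : D.pi0 t = D.wH t ^ (q + 1) := rfl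

include D in
theorem Dat.card_units : Nat.card Lˣ = (q ^ m - 1) * (q ^ m + 1) := by
  have := D.finL
  have := D.fd
  have hL : Nat.card L = Nat.card K ^ m := by
    have := Module.natCard_eq_pow_finrank (K := K) (V := L)
    rw [this, D.hfr]
  rw [Nat.card_units, hL, hq, ← pow_mul, mul_comm 2 m, pow_mul]
  have := Nat.sq_sub_sq (q ^ m) 1
  rw [one_pow] at this
  rw [this, mul_comm]

/-- a torus element with given eigenvalue -/
theorem Dat.exists_t {u : Lˣ} (hu : u ^ (q ^ m + 1) = 1) : ∃ t : D.T, D.wH t = u := by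
  have h0 : (u : L) * (u : L) ^ (q ^ m) = 1 := by
    have := congrArg (fun x : Lˣ => (x : L)) hu
    simp only [Units.val_one, pow_succ'] at this
    exact this
  let f : (Fin n → K) →ₗ[K] (Fin n → K) :=
    (D.j.symm : (L × (Fin d → K)) →ₗ[K] (Fin n → K)) ∘ₗ
      (LinearMap.prodMap (LinearMap.mulLeft K (u : L)) (LinearMap.id)) ∘ₗ (D.j : (Fin n → K) →ₗ[K] L × (Fin d → K))
  have hf : ∀ v, D.j (f v) = ((u : L) * (D.j v).1, (D.j v).2) := by
    intro v
    change D.j (D.j.symm _) = _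
    rw [D.j.apply_symm_apply]
    rfl
  have hB : ∀ x y, hermForm n K q (f x) (f y) = hermForm n K q x y := by
    intro x y
    rw [← D.hj, ← D.hj, hf, hf]
    unfold bf
    have e1 : (u : L) * (D.j x).1 * ((u : L) * (D.j y).1) ^ (q ^ m) =
        ((u : L) * (u : L) ^ (q ^ m)) * ((D.j x).1 * (D.j y).1 ^ (q ^ m)) := by ring
    rw [e1, h0, one_mul]
  obtain ⟨g, hg⟩ := (hermF K hq n).exists_iso f (fun x y => hB x y) (fun x => hB x x)
  have hs : D.Sem g 1 u 1 := by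
    intro v
    rw [hg, hf, Units.val_one, one_smul]
    rfl
  exact ⟨⟨g, ⟨u, 1, hs⟩⟩, D.wH_eq hs⟩

variable {M : ℕ} (hM : M * (q + 1) = q ^ m + 1)

include hM

theorem Dat.card_dvd : Nat.card D.pi0.range ∣ M := by
  have := D.finL
  obtain ⟨g, hg⟩ := IsCyclic.exists_generator (α := D.pi0.range)
  have h1 : orderOf g = Nat.card D.pi0.range := orderOf_eq_card_of_forall_mem_zpowers hg
  rw [← h1]
  apply orderOf_dvd_of_pow_eq_one
  obtain ⟨t, ht⟩ := g.2
  apply Subtype.ext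
  rw [SubmonoidClass.coe_pow, ← ht, D.pi0_apply, ← pow_mul, mul_comm (q + 1), hM]
  obtain ⟨c, hc⟩ := D.wH_spec t
  exact D.w_pow hc

theorem Dat.le_card (hq1 : 1 < q) : M ≤ Nat.card D.pi0.range := by
  have := D.finL
  obtain ⟨g, hg⟩ := IsCyclic.exists_generator (α := Lˣ)
  have h1 : orderOf g = (q ^ m - 1) * (q ^ m + 1) := by
    rw [orderOf_eq_card_of_forall_mem_zpowers hg, D.card_units]
  have hqm : 0 < q ^ m - 1 := by
    have := Nat.one_lt_pow D.hm.ne_zero hq1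
    omega
  obtain ⟨t, ht⟩ := D.exists_t (u := g ^ (q ^ m - 1)) (by rw [← pow_mul, ← h1, pow_orderOf_eq_one])
  have h2 : orderOf (D.pi0 t) = M := by
    rw [D.pi0_apply, ht, ← pow_mul, orderOf_pow_of_dvd (by positivity), h1, ← hM]
    · have : (q ^ m - 1) * (M * (q + 1)) = M * ((q ^ m - 1) * (q + 1)) := by ring
      rw [this]
      exact Nat.mul_div_cancel _ (by positivity)
    · rw [h1, ← hM]
      exact mul_dvd_mul_left _ (Dvd.intro_left _ rfl)
  have h3 : orderOf (⟨D.pi0 t, ⟨t, rfl⟩⟩ : D.pi0.range) = M := by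
    rw [← h2]
    exact Subgroup.orderOf_mk _ _
  rw [← h3]
  exact Nat.le_of_dvd Nat.card_pos (orderOf_dvd_natCard _)

omit hM

theorem Dat.hB (t : D.T) (ht : (t : G K hq n) ∈ D.B) : D.pi0 t = 1 := by
  obtain ⟨a, c, h⟩ := ht
  have h1 := D.wH_eq h
  have hm := D.hm.odd_of_ne_two D.hm2
  have h2 := D.w_pow h
  have h3 : a ^ (q ^ 2 - 1) = 1 := by
    rw [← hq, ← Nat.card_units]
    exact pow_card_eq_one'
  rw [D.pi0_apply, h1]
  obtain ⟨k, hk⟩ := hm
  rw [← map_pow] at h2 ⊢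
  have hinj : Function.Injective (Units.map (algebraMap K L : K →* L)) :=
    Units.map_injective (algebraMap K L).injective
  have h4 : a ^ (q ^ m + 1) = 1 := hinj (h2.trans (map_one _).symm)
  have h5 : a ^ (q ^ 2) = a := by
    have hq0 : 0 < q ^ 2 := by rw [← hq]; exact Nat.card_pos
    have : q ^ 2 = (q ^ 2 - 1) + 1 := by omega
    rw [this, pow_succ, h3, one_mul]
  have h6 : ∀ k : ℕ, a ^ ((q ^ 2) ^ k) = a := by
    intro k
    induction k with
    | zero => rw [pow_zero, pow_one]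
    | succ k ih => rw [pow_succ, pow_mul, ih, h5]
  have h7 : a ^ (q + 1) = 1 := by
    rw [hk, pow_succ, pow_succ, pow_mul q 2 k, pow_mul, h6] at h4
    rw [pow_succ]
    exact h4
  rw [h7, map_one]

theorem Dat.act (hg : ∀ g, g ∣ q ^ 2 - 1 → g ∣ M → g ∣ m) (hM : M * (q + 1) = q ^ m + 1) (x : D.N) (hx : (x : G K hq n) ∉ D.T) :
    ∃ r : ℕ, (∀ t : D.T, D.pi0.rangeRestrict ⟨(x : G K hq n)⁻¹ * t * x, D.tor.norm' x.2 t.2⟩ =
      D.pi0.rangeRestrict t ^ r) ∧ 1 ≤ r ∧ Nat.gcd (r - 1) (Nat.card D.pi0.range) ∣ m := by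
  have := D.finL
  have := D.fd
  have := Fintype.ofFinite K
  obtain ⟨τ, w, c, h⟩ := x.2
  have hτ : τ ≠ 1 := by
    rintro rfl
    exact hx ⟨w, c, h⟩
  obtain ⟨i, hi⟩ := (FiniteField.bijective_frobeniusAlgEquivOfAlgebraic_pow K L).2 τ⁻¹
  have hi0 : (i : ℕ) ≠ 0 := by
    intro h0
    simp only [h0, pow_zero] at hi
    exact hτ (inv_eq_one.1 hi.symm)
  have him : (i : ℕ) < m := by
    exact lt_of_lt_of_eq i.2 D.hfr
  have hτa : ∀ a : L, τ⁻¹ a = a ^ (q ^ 2) ^ (i : ℕ) := by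
    intro a
    rw [← hi, ← hq, Nat.card_eq_fintype_card, AlgEquiv.coe_pow, FiniteField.coe_frobeniusAlgEquivOfAlgebraic_iterate]
  have hr1 : 1 ≤ (q ^ 2) ^ (i : ℕ) := by
    have : 0 < q ^ 2 := by rw [← hq]; exact Nat.card_pos
    exact Nat.one_le_pow _ _ this
  refine ⟨(q ^ 2) ^ (i : ℕ), fun t => ?_, hr1, ?_⟩
  · obtain ⟨c', hc'⟩ := D.wH_spec t
    have h1 := D.sem_conj (D.sem_inv h) hc'
    rw [inv_inv] at h1
    have h2 : D.wH ⟨(x : G K hq n)⁻¹ * t * x, D.tor.norm' x.2 t.2⟩ = Units.map ((τ⁻¹ : L ≃ₐ[K] L) : L →* L) (D.wH t) :=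
      D.wH_eq h1
    have h3 : Units.map ((τ⁻¹ : L ≃ₐ[K] L) : L →* L) (D.wH t) = D.wH t ^ (q ^ 2) ^ (i : ℕ) := by
      apply Units.ext
      change τ⁻¹ ((D.wH t : Lˣ) : L) = _
      rw [hτa, Units.val_pow_eq_pow_val]
    apply Subtype.ext
    change D.pi0 _ = D.pi0 t ^ _
    rw [D.pi0_apply, D.pi0_apply, h2, h3]
    generalize (q ^ 2) ^ (i : ℕ) = r
    rw [← pow_mul, ← pow_mul, mul_comm]
  · have h1 : Nat.gcd ((q ^ 2) ^ (i : ℕ) - 1) (Nat.card D.pi0.range) ∣ M := (Nat.gcd_dvd_right _ _).trans (D.card_dvd hM)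
    refine hg _ ?_ h1
    have h2 : Nat.gcd ((q ^ 2) ^ (i : ℕ) - 1) (Nat.card D.pi0.range) ∣ (q ^ 2) ^ m - 1 := by
      refine h1.trans ((Dvd.intro _ hM).trans ?_)
      have := Nat.sq_sub_sq (q ^ m) 1
      rw [one_pow] at this
      rw [← pow_mul, mul_comm 2 m, pow_mul, this]
      exact Dvd.intro _ rfl
    have h3 := Nat.dvd_gcd (Nat.gcd_dvd_left ((q ^ 2) ^ (i : ℕ) - 1) (Nat.card D.pi0.range)) h2
    rw [Nat.pow_sub_one_gcd_pow_sub_one] at h3
    have h4 : Nat.gcd (i : ℕ) m = 1 := by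
      exact Nat.Coprime.symm ((Nat.Prime.coprime_iff_not_dvd D.hm).2 fun h =>
        absurd (Nat.le_of_dvd (Nat.pos_of_ne_zero hi0) h) (by omega))
    rwa [h4, pow_one] at h3

/-- the family of exceptional characters -/
theorem Dat.family (hq1 : 1 < q) (hg : ∀ g, g ∣ q ^ 2 - 1 → g ∣ M → g ∣ m) (hM : M * (q + 1) = q ^ m + 1) :
    ∃ (k : ℕ) (μ : Fin k → G K hq n → ℂ), M ≤ m * k + m ∧ (∀ i, IsIrrCharacter (G K hq n) (μ i)) ∧
      Function.Injective μ ∧ (∀ i j g, (∀ x : G K hq n, x * g * x⁻¹ ∈ D.T → x * g * x⁻¹ ∈ D.B) → μ i g = μ j g) ∧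
      (2 ≤ k → ∀ z ∈ D.T, z ∈ D.B → (∀ g, z * g = g * z) → ∀ i, μ i z = μ i 1) := by
  classical
  have := D.finL
  have := D.fd
  have : Finite (G K hq n) := finite_iso (hermF K hq n)
  have := Fintype.ofFinite (G K hq n)
  have hfin : Finite (L ≃ₐ[K] L) := inferInstance
  have := Fintype.ofFinite (L ≃ₐ[K] L)
  have := Fintype.ofFinite K
  have hκ : Fintype.card (L ≃ₐ[K] L) = m := by
    rw [← D.hfr, ← Fintype.card_of_bijective (FiniteField.bijective_frobeniusAlgEquivOfAlgebraic_pow K L), Fintype.card_fin]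
  obtain ⟨k, μ, h1, h2, h3, h4, h5⟩ := exists_family D.tor D.pi0.rangeRestrict D.pi0.rangeRestrict_surjective
    (fun t ht => Subtype.ext (D.hB t ht)) D.hm.pos (fun x hx => D.act hg hM x hx) (κ := L ≃ₐ[K] L)
    (fun x => x.2.choose) (fun x y hxy => by
      obtain ⟨w, c, h⟩ := x.2.choose_spec
      obtain ⟨w', c', h'⟩ := y.2.choose_spec
      have h6 := D.sem_mul (D.sem_inv h) h'
      have h7 : (x.2.choose)⁻¹ * y.2.choose = 1 := by rw [hxy, inv_mul_cancel]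
      rw [h7] at h6
      exact ⟨_, _, h6⟩)
  rw [hκ] at h1
  exact ⟨k, μ, (D.le_card hM hq1).trans h1, h2, h3, h4, h5⟩

end Cfsg.Agent.H113.Cusp.Torus
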